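import Mathlib.Analysis.Fourier.FiniteAbelian.PontryaginDuality

/-! A Fourier bound in a finite abelian group. -/

set_option autoImplicit false

namespace Cfsg.Agent.Der

open Finset
open scoped ComplexConjugate

variable {α : Type*} [AddCommGroup α] [Fintype α] [DecidableEq α]

/-- Fourier coefficient of a subset -/
noncomputable def hat (A : Finset α) (ψ : AddChar α ℂ) : ℂ := ∑ x ∈ A, ψ x

theorem sum_hat (A B C : Finset α) :
    ∑ ψ : AddChar α ℂ, hat A ψ * (hat B ψ * conj (hat C ψ)) =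
      Fintype.card α * ∑ v ∈ B, ((A.filter fun u => v + u ∈ C).card : ℂ) := by
  have h1 : ∀ ψ : AddChar α ℂ, hat A ψ * (hat B ψ * conj (hat C ψ)) =
      ∑ v ∈ B, ∑ u ∈ A, ∑ w ∈ C, ψ (v + u - w) := by
    intro ψ
    rw [mul_left_comm, hat, Finset.sum_mul]
    refine Finset.sum_congr rfl fun v _ => ?_
    rw [hat, Finset.sum_mul, Finset.mul_sum]
    refine Finset.sum_congr rfl fun u _ => ?_
    simp only [hat, map_sum, Finset.mul_sum, sub_eq_add_neg, AddChar.map_add_eq_mul,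
      AddChar.map_neg_eq_conj, mul_assoc]
  simp only [h1]
  rw [Finset.sum_comm, Finset.mul_sum]
  refine Finset.sum_congr rfl fun v _ => ?_
  rw [Finset.sum_comm, Finset.card_filter, Nat.cast_sum, Finset.mul_sum]
  refine Finset.sum_congr rfl fun u _ => ?_
  rw [Finset.sum_comm]
  simp only [AddChar.sum_apply_eq_ite, sub_eq_zero]
  rw [Finset.sum_ite_eq]
  split_ifs <;> simp

omit [Fintype α] [DecidableEq α] in
theorem hat_zero (A : Finset α) : hat A 0 = A.card := by simp [hat]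

theorem parseval (A : Finset α) :
    ∑ ψ ∈ univ.erase (0 : AddChar α ℂ), ‖hat A ψ‖ ^ 2 = A.card * ((Fintype.card α : ℝ) - A.card) := by
  have h1 := sum_hat A {0} A
  have h2 : ∀ ψ : AddChar α ℂ, hat A ψ * (hat {0} ψ * conj (hat A ψ)) = ((‖hat A ψ‖ ^ 2 : ℝ) : ℂ) := by
    intro ψ
    rw [show hat {0} ψ = 1 by simp [hat], one_mul, Complex.mul_conj, Complex.normSq_eq_norm_sq]
  simp only [h2, sum_singleton, zero_add] at h1
  rw [Finset.filter_true_of_mem fun _ h => h, ← Finset.add_sum_erase _ _ (mem_univ 0), hat_zero] at h1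
  have h3 : ‖(A.card : ℂ)‖ ^ 2 + ∑ ψ ∈ univ.erase (0 : AddChar α ℂ), ‖hat A ψ‖ ^ 2 =
      Fintype.card α * A.card := by exact_mod_cast h1
  rw [Complex.norm_natCast] at h3
  linarith

theorem fourier (A B : Finset α) (i r : ℕ) (hi0 : 0 < i)
    (hi : ∀ ψ : AddChar α ℂ, ψ ≠ 0 → i ≤ {χ : AddChar α ℂ | χ ≠ 0 ∧ hat A χ = hat A ψ}.ncard)
    (hr : ∀ v ∉ B, (A.filter fun u => v + u ∈ B).card ≤ r) (hB : B.card < Fintype.card α) :
    ∃ θ : ℝ, 0 ≤ θ ∧ i * θ ^ 2 = A.card * ((Fintype.card α : ℝ) - A.card) ∧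
      (A.card - θ) * B.card ≤ Fintype.card α * r := by
  classical
  set n : ℝ := (Fintype.card α : ℝ) with hn
  have hk : (A.card : ℝ) ≤ n := by rw [hn]; exact_mod_cast A.card_le_univ
  have hi' : (0 : ℝ) < i := by exact_mod_cast hi0
  have h0 : 0 ≤ A.card * (n - A.card) / i := div_nonneg (mul_nonneg (by positivity) (by linarith)) hi'.le
  refine ⟨√(A.card * (n - A.card) / i), Real.sqrt_nonneg _, by rw [Real.sq_sqrt h0]; field_simp, ?_⟩
  set θ := √(A.card * (n - A.card) / i)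
  have hθ : ∀ ψ : AddChar α ℂ, ψ ≠ 0 → ‖hat A ψ‖ ≤ θ := by
    intro ψ hψ
    apply Real.le_sqrt_of_sq_le
    rw [le_div_iff₀ hi', ← parseval]
    have h1 := hi ψ hψ
    rw [Set.ncard_eq_toFinset_card'] at h1
    refine le_trans ?_ (Finset.sum_le_sum_of_subset_of_nonneg
      (s := {χ : AddChar α ℂ | χ ≠ 0 ∧ hat A χ = hat A ψ}.toFinset)
      (fun χ hχ => mem_erase.2 ⟨(Set.mem_toFinset.1 hχ).1, mem_univ _⟩) fun _ _ _ => by positivity)
    rw [Finset.sum_congr rfl (g := fun _ => ‖hat A ψ‖ ^ 2)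
      (fun χ hχ => by rw [(Set.mem_toFinset.1 hχ).2]), sum_const, nsmul_eq_mul, mul_comm]
    gcongr
  have h1 := sum_hat A B B
  have h2 : ∀ ψ : AddChar α ℂ, hat B ψ * conj (hat B ψ) = ((‖hat B ψ‖ ^ 2 : ℝ) : ℂ) := by
    intro ψ
    rw [Complex.mul_conj, Complex.normSq_eq_norm_sq]
  simp only [h2] at h1
  rw [← Finset.add_sum_erase _ _ (mem_univ 0), hat_zero, hat_zero, Complex.norm_natCast] at h1
  set T : ℕ := ∑ v ∈ B, (A.filter fun u => v + u ∈ B).card with hT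
  have h3 : n * T ≤ A.card * (B.card : ℝ) ^ 2 + θ * (B.card * (n - B.card)) := by
    have h4 := congrArg Complex.re h1
    rw [← Nat.cast_sum, ← hT, ← Nat.cast_mul, Complex.natCast_re, Complex.add_re, Complex.re_sum,
      ← Complex.ofReal_natCast, ← Complex.ofReal_mul, Complex.ofReal_re] at h4
    rw [← parseval, Finset.mul_sum, hn, ← Nat.cast_mul, ← h4]
    gcongr with ψ hψ
    rw [Complex.re_mul_ofReal]
    gcongr
    exact (Complex.re_le_norm _).trans (hθ ψ (ne_of_mem_erase hψ))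
  have h5 : ∑ v, (A.filter fun u => v + u ∈ B).card = A.card * B.card := by
    simp only [Finset.card_filter]
    rw [Finset.sum_comm, ← smul_eq_mul, ← Finset.sum_const]
    refine Finset.sum_congr rfl fun u _ => ?_
    rw [← Finset.card_filter]
    refine Finset.card_bij (fun v _ => v + u) (fun v hv => (mem_filter.1 hv).2)
      (fun _ _ _ _ e => add_right_cancel e) fun w hw => ⟨w - u, by simpa using hw, by simp⟩
  rw [← Finset.sum_add_sum_compl B, ← hT] at h5
  have h6 : ∑ v ∈ Bᶜ, (A.filter fun u => v + u ∈ B).card ≤ (Fintype.card α - B.card) * r := by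
    rw [← Finset.card_compl, ← smul_eq_mul]
    exact Finset.sum_le_card_nsmul _ _ _ fun v hv => hr v (mem_compl.1 hv)
  have h7 : (A.card : ℝ) * B.card ≤ T + (n - B.card) * r := by
    rw [hn, ← Nat.cast_sub hB.le]
    exact_mod_cast h5 ▸ Nat.add_le_add_left h6 T
  have h8 : (0 : ℝ) < n - B.card := by rw [hn, sub_pos]; exact_mod_cast hB
  have h9 : 0 ≤ n := by rw [hn]; positivity
  apply le_of_mul_le_mul_right _ h8
  nlinarith [mul_le_mul_of_nonneg_left h7 h9]

omit [Fintype α] in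
theorem hat_comp (A : Finset α) (ψ : AddChar α ℂ) (σ : α →+ α) (hσ : Function.Injective σ)
    (hA : ∀ v ∈ A, σ v ∈ A) : hat A (ψ.compAddMonoidHom σ) = hat A ψ := by
  have : A.image σ = A := Finset.eq_of_subset_of_card_le
    (fun x hx => by obtain ⟨v, hv, rfl⟩ := mem_image.1 hx; exact hA v hv)
    (Finset.card_image_of_injective _ hσ).ge
  conv_rhs => rw [← this, hat, Finset.sum_image fun _ _ _ _ e => hσ e]
  rfl

omit [DecidableEq α] in
theorem exists_eq_of_comp {ψ : AddChar α ℂ} (hψ : ψ ≠ 0) (σ τ : α →+ α)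
    (e : ψ.compAddMonoidHom σ = ψ.compAddMonoidHom τ) : ∃ v, v ≠ 0 ∧ σ v = τ v := by
  by_contra hh
  push Not at hh
  have h1 : Function.Injective (σ - τ) := (injective_iff_map_eq_zero _).2 fun v hv => by
    by_contra h0
    exact hh v h0 (sub_eq_zero.1 hv)
  apply hψ
  ext w
  obtain ⟨v, rfl⟩ := Finite.injective_iff_surjective.1 h1 w
  have h2 : ψ (σ v) = ψ (τ v) := DFunLike.congr_fun e v
  rw [AddMonoidHom.sub_apply, AddChar.map_sub_eq_div, h2, div_self, AddChar.zero_apply]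
  intro h0
  simpa [h0] using ψ.norm_apply (τ v)

theorem four_arith {i m n φ : ℕ} {θ : ℝ} (hm : 2 ≤ m) (hi : 2 * m ≤ i + 1) (hn : n ≤ i ^ 2 + i + 1)
    (h0 : 0 ≤ θ) (h1 : i * θ ^ 2 = (i * m : ℕ) * ((n : ℝ) - (i * m : ℕ)))
    (h2 : ((i * m : ℕ) - θ) * φ ≤ n * (m - 1 : ℕ)) : φ ≤ 2 * i := by
  by_contra hφ
  have hφ' : (2 * i + 1 : ℝ) ≤ φ := by exact_mod_cast not_le.1 hφ
  rw [Nat.cast_sub (by omega)] at h2
  push_cast at h1 h2
  have hm' : (2 : ℝ) ≤ m := by exact_mod_cast hm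
  have hi' : (2 * m : ℝ) ≤ i + 1 := by exact_mod_cast hi
  have hn' : (n : ℝ) ≤ i ^ 2 + i + 1 := by exact_mod_cast hn
  generalize (i : ℝ) = x at *
  generalize (m : ℝ) = y at *
  have h3 : θ ^ 2 ≤ y * (x ^ 2 + x + 1 - x * y) := by
    have : θ ^ 2 = y * (n - x * y) := mul_left_cancel₀ (a := x) (by linarith) (by linarith)
    rw [this]
    gcongr
  have h4 : (2 * x + 1) * θ < x ^ 2 * (y + 1) + x - y + 1 := by
    apply lt_of_pow_lt_pow_left₀ 2 (by nlinarith)
    have : ((2 * x + 1) * θ) ^ 2 ≤ (2 * x + 1) ^ 2 * (y * (x ^ 2 + x + 1 - x * y)) := by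
      rw [mul_pow]; gcongr
    refine this.trans_lt ?_
    obtain ⟨s, rfl⟩ : ∃ s, y = s + 2 := ⟨y - 2, by ring⟩
    obtain ⟨t, rfl⟩ : ∃ t, x = t + 2 * s + 3 := ⟨x - 2 * s - 3, by ring⟩
    have hs : 0 ≤ s := by linarith
    have ht : 0 ≤ t := by linarith
    rw [← sub_pos]
    ring_nf
    positivity
  have h5 : θ ≤ x * y := by nlinarith
  nlinarith [mul_le_mul_of_nonneg_left hφ' (sub_nonneg.2 h5)]

end Cfsg.Agent.Der
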