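import Cfsg.Agent.Der.Prime
import Cfsg.Agent.Der.Four

/-! A bound for the number of fixed points. -/

set_option autoImplicit false

namespace Cfsg.Agent.Der

open Subgroup MulAction Cfsg.Agent.Local
open scoped Pointwise

variable {G Ω : Type*} [Group G] [MulAction G Ω] [Finite G] [Finite Ω] {D V : Subgroup G} {p : ℕ}

omit [Finite G] [Finite Ω] in
theorem DS.ncard_sub (h : DS Ω D) {a b : Ω} (hb : b ≠ a) :
    (orb (stabilizer G a) b).ncard = D.index * (orb (D ⊓ stabilizer G a) b).ncard :=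
  (h.cov_stab a).ncard_orb h.normal fun x hx => h.uniq x b a hx.2 hx.1 hb

omit [Finite G] [Finite Ω] in
theorem ne_of_mem_orb {a b u : Ω} (hb : b ≠ a) (hu : u ∈ orb (stabilizer G a) b) : u ≠ a := by
  obtain ⟨x, hx, rfl⟩ := hu
  intro e
  exact hb (MulAction.injective x (e.trans (show x • a = a from hx).symm))

theorem DS.ncard_swap (h : DS Ω D) (a b : Ω) :
    (orb (D ⊓ stabilizer G b) a).ncard = (orb (D ⊓ stabilizer G a) b).ncard := by
  apply Nat.eq_of_mul_eq_mul_left (Nat.card_pos (α := ↥(D ⊓ stabilizer G b ⊓ stabilizer G a)))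
  rw [card_eq_orb, inf_right_comm, card_eq_orb, h.card_stab_eq]

theorem DS.nu_le (h : DS Ω D) {a b : Ω} (hb : b ≠ a)
    (hmin : ∀ c, c ≠ a → (orb (stabilizer G a) b).ncard ≤ (orb (stabilizer G a) c).ncard)
    {c : Ω} (hc : c ≠ a) :
    {u ∈ orb (stabilizer G a) b | c ∈ orb (D ⊓ stabilizer G u) a}.ncard ≤
      (orb (D ⊓ stabilizer G a) b).ncard - 1 := by
  classical
  have key := Finset.card_mul_le_card_mul (s := (orb (stabilizer G a) c).toFinite.toFinset)
    (t := (orb (stabilizer G a) b).toFinite.toFinset) (fun c u => c ∈ orb (D ⊓ stabilizer G u) a)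
    (m := {u ∈ orb (stabilizer G a) b | c ∈ orb (D ⊓ stabilizer G u) a}.ncard)
    (n := (orb (D ⊓ stabilizer G a) b).ncard - 1) ?_ ?_
  · rw [← Set.ncard_eq_toFinset_card _ _, ← Set.ncard_eq_toFinset_card _ _] at key
    exact Nat.le_of_mul_le_mul_left ((Nat.mul_le_mul_right _ (hmin c hc)).trans key)
      ((Set.ncard_pos (Set.toFinite _)).2 ⟨b, mem_orb_self _ _⟩)
  · intro c' hc'
    obtain ⟨x, hx, rfl⟩ := (Set.Finite.mem_toFinset _).1 hc'
    rw [← Set.ncard_coe_finset]
    refine Set.ncard_le_ncard_of_injOn (fun u => x • u) ?_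
      (fun _ _ _ _ e => MulAction.injective x e) (Set.toFinite _)
    rintro u ⟨hu, d, hd, rfl⟩
    rw [Finset.mem_coe, Finset.mem_bipartiteAbove, Set.Finite.mem_toFinset]
    refine ⟨smul_mem_orb hx hu, x * d * x⁻¹, ⟨h.normal.conj_mem _ hd.1 _, ?_⟩, ?_⟩
    · change (x * d * x⁻¹) • x • u = x • u
      rw [mul_smul, mul_smul, inv_smul_smul, show d • u = u from hd.2]
    · rw [mul_smul, mul_smul, show x⁻¹ • a = a from (stabilizer G a).inv_mem hx]
  · intro u hu
    rw [Set.Finite.mem_toFinset] at hu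
    have h1 : (orb (D ⊓ stabilizer G u) a).ncard = (orb (D ⊓ stabilizer G a) b).ncard := by
      rw [h.ncard_swap]
      apply Nat.eq_of_mul_eq_mul_left (Nat.pos_of_ne_zero (index_ne_zero_of_finite (H := D)))
      rw [← h.ncard_sub hb, ← h.ncard_sub (ne_of_mem_orb hb hu), orb_eq hu]
    rw [← h1, ← Set.ncard_sdiff_singleton_of_mem (mem_orb_self _ a), ← Set.ncard_coe_finset]
    refine Set.ncard_le_ncard (fun c' hc' => ?_) (Set.toFinite _)
    rw [Finset.mem_coe, Finset.mem_bipartiteBelow, Set.Finite.mem_toFinset] at hc'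
    exact ⟨hc'.2, ne_of_mem_orb hc hc'.1⟩

theorem DS.fix_le (h : DS Ω D) {a b : Ω} (hb : b ≠ a)
    (hmin : ∀ c, c ≠ a → (orb (stabilizer G a) b).ncard ≤ (orb (stabilizer G a) c).ncard)
    {y : G} (hy : y ∈ D) {g : G} (hg : y • g • a ≠ g • a) :
    {u ∈ orb (stabilizer G a) b | y • g • u = g • u}.ncard ≤
      (orb (D ⊓ stabilizer G a) b).ncard - 1 := by
  refine le_trans (Set.ncard_le_ncard ?_ (Set.toFinite _))
    (h.nu_le hb hmin (c := (g⁻¹ * y * g) • a) fun e => hg ?_)
  · rintro u ⟨hu, e⟩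
    refine ⟨hu, _, ⟨by simpa using h.normal.conj_mem _ hy g⁻¹, ?_⟩, rfl⟩
    change (g⁻¹ * y * g) • u = u
    rw [mul_smul, mul_smul, e, inv_smul_smul]
  · rwa [mul_smul, mul_smul, inv_smul_eq_iff] at e

omit [Finite G] [Finite Ω] in
theorem RS.semi [FaithfulSMul G Ω] (hV : RS Ω D V p) {v : G} (hv : v ∈ V) {c : Ω} (e : v • c = c) :
    v = 1 := eq_one_of_comm hV.trans (fun w hw => hV.comm w hw v hv) e

omit [Finite G] [Finite Ω] in
theorem RS.card [FaithfulSMul G Ω] (hV : RS Ω D V p) (a : Ω) : Nat.card V = Nat.card Ω := by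
  rw [← card_eq_orb V a, show V ⊓ stabilizer G a = ⊥ from eq_bot_iff.2 fun x hx =>
    hV.semi hx.1 hx.2, card_bot, one_mul,
    show orb V a = Set.univ from Set.eq_univ_of_forall fun b => hV.trans a b, Set.ncard_univ]

omit [Finite Ω] in
theorem RS.cov (hV : RS Ω D V p) (h : DS Ω D) : Cov D (normalizer (V : Set G)) := by
  have := Fact.mk hV.pp
  have := (cov_top (D := D)).frattini h.normal (P := V) (p := p) (by rw [inf_top_eq]; exact hV.syl)
  rwa [top_inf_eq] at this

/-- conjugation on the additive version of `V` -/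
def cj (V : Subgroup G) (x : G) (hx : x ∈ normalizer (V : Set G)) : Additive V →+ Additive V where
  toFun v := Additive.ofMul ⟨x * v.toMul * x⁻¹, conj_mem_of_mem_normalizer hx v.toMul.2⟩
  map_zero' := by ext; simp
  map_add' v w := by ext; simp

theorem RS.fix_le [FaithfulSMul G Ω] (hV : RS Ω D V p) (h : DS Ω D) {a b : Ω} (hb : b ≠ a)
    (hmin : ∀ c, c ≠ a → (orb (stabilizer G a) b).ncard ≤ (orb (stabilizer G a) c).ncard)
    {y : G} (hy : y ∈ D) (hy1 : y ≠ 1) :
    ∃ θ : ℝ, 0 ≤ θ ∧ D.index * θ ^ 2 = (orb (stabilizer G a) b).ncard *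
      ((Nat.card Ω : ℝ) - (orb (stabilizer G a) b).ncard) ∧
      ((orb (stabilizer G a) b).ncard - θ) * (fixedBy Ω y).ncard ≤
        Nat.card Ω * ((orb (D ⊓ stabilizer G a) b).ncard - 1 : ℕ) := by
  classical
  letI : CommGroup V := { mul_comm := fun v w => Subtype.ext (hV.comm _ v.2 _ w.2) }
  have := Fintype.ofFinite (Additive V)
  let e : Additive V → Ω := fun v => (v.toMul : G) • a
  have hinj : Function.Injective e := by
    intro v w hh
    have := hV.semi (mul_mem (inv_mem w.toMul.2) v.toMul.2) (c := a)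
      (by rw [mul_smul, inv_smul_eq_iff]; exact hh)
    exact Additive.toMul.injective (Subtype.ext (inv_mul_eq_one.1 this).symm)
  have hcard : ∀ S : Set Ω, (Finset.univ.filter fun v => e v ∈ S).card = S.ncard := by
    intro S
    rw [← Set.ncard_coe_finset, ← Set.ncard_image_of_injective _ hinj]
    congr 1
    ext c
    constructor
    · rintro ⟨v, hv, rfl⟩
      exact (Finset.mem_filter.1 hv).2
    · intro hc
      obtain ⟨v, hv, rfl⟩ := hV.trans a c
      exact ⟨Additive.ofMul ⟨v, hv⟩, Finset.mem_filter.2 ⟨Finset.mem_univ _, hc⟩, rfl⟩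
  have hn : Fintype.card (Additive V) = Nat.card Ω := by
    rw [← Nat.card_eq_fintype_card, ← hV.card a]; rfl
  rw [← hcard, ← hcard (fixedBy Ω y), ← hn]
  refine fourier _ _ _ _ (Nat.pos_of_ne_zero (index_ne_zero_of_finite (H := D))) ?_ ?_ ?_
  · intro ψ hψ
    have c2 := (hV.cov h).stab h.normal a fun b =>
      let ⟨v, hv, e⟩ := hV.trans a b
      ⟨v, hV.syl.le hv, le_normalizer hv, e⟩
    have hcj : ∀ x hx, Function.Injective (cj V x hx) := fun x hx v w hh =>
      Additive.toMul.injective (Subtype.ext (mul_left_cancel (mul_right_cancel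
        (show x * v.toMul * x⁻¹ = x * w.toMul * x⁻¹ from
          congrArg (fun u : Additive V => (u.toMul : G)) hh))))
    refine c2.le_ncard (fun x => if hx : x ∈ normalizer (V : Set G) then
      ψ.compAddMonoidHom (cj V x hx) else 0) _ (Set.toFinite _) (fun x hx => ?_)
      fun x hx x' hx' hh => ?_
    · rw [dif_pos (mem_inf.1 hx).1]
      refine ⟨fun h0 => ?_, hat_comp _ _ _ (hcj x hx.1) fun v hv => ?_⟩
      · obtain ⟨v, hv, h1⟩ := exists_eq_of_comp hψ (cj V x hx.1) 0 (h0.trans (by ext; simp))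
        exact hv (hcj x hx.1 (h1.trans (map_zero _).symm))
      · refine Finset.mem_filter.2 ⟨Finset.mem_univ _, ?_⟩
        change (x * v.toMul * x⁻¹) • a ∈ _
        rw [mul_smul, mul_smul, show x⁻¹ • a = a from (stabilizer G a).inv_mem hx.2]
        exact smul_mem_orb hx.2 (Finset.mem_filter.1 hv).2
    · simp only [dif_pos (mem_inf.1 hx).1, dif_pos (mem_inf.1 hx').1] at hh
      obtain ⟨v, hv, h1⟩ := exists_eq_of_comp hψ _ _ hh
      have h2 : x * v.toMul * x⁻¹ = x' * v.toMul * x'⁻¹ :=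
        congrArg (fun u : Additive V => (u.toMul : G)) h1
      refine h.uniq _ a (e v) (mul_mem ((stabilizer G a).inv_mem hx.2) hx'.2) ?_
        fun h3 => hv (hinj (h3.symm.trans (one_smul G a).symm))
      have h3 := congrArg (· • a) h2
      simp only [mul_smul, show x⁻¹ • a = a from (stabilizer G a).inv_mem hx.2,
        show x'⁻¹ • a = a from (stabilizer G a).inv_mem hx'.2] at h3
      rw [mul_smul, inv_smul_eq_iff]
      exact h3.symm
  · intro v hv
    refine le_trans (le_of_eq ?_) (h.fix_le hb hmin hy (g := v.toMul) fun hh =>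
      hv (Finset.mem_filter.2 ⟨Finset.mem_univ _, hh⟩))
    rw [← hcard, Finset.filter_filter]
    congr 1
    ext u
    simp [e, mul_smul]
  · rw [hcard, hn, ← Set.ncard_univ]
    refine Set.ncard_lt_ncard (Set.ssubset_univ_iff.2 fun hh => hy1 ?_) (Set.toFinite _)
    refine eq_of_smul_eq_smul (α := Ω) fun c => ?_
    rw [one_smul]
    exact (hh ▸ Set.mem_univ c : c ∈ fixedBy Ω y)

end Cfsg.Agent.Der
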