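import Cfsg.Agent.Der.Key
import Cfsg.Agent.Perm1.Count

/-! The index bound for primitive groups which are not affine. -/

set_option autoImplicit false

namespace Cfsg.Agent.Der

open Subgroup MulAction Cfsg.Agent.Local
open scoped Pointwise

variable {G Ω : Type*} [Group G] [MulAction G Ω] [Finite G] [Finite Ω] {D V : Subgroup G} {p : ℕ}

theorem DS.stab_eq_bot [FaithfulSMul G Ω] (h : DS Ω D) (hprim : IsPreprimitive G Ω) {a b : Ω}
    (hb : b ≠ a) (hle : D ⊓ stabilizer G a ≤ stabilizer G b) : D ⊓ stabilizer G a = ⊥ := by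
  let B : Set Ω := {c | D ⊓ stabilizer G a ≤ stabilizer G c}
  have h1 : ∀ c ∈ B, D ⊓ stabilizer G a = D ⊓ stabilizer G c := fun c hc =>
    eq_of_le_of_card_ge (le_inf inf_le_left hc) (h.card_stab_eq c a).le
  have h2 : ∀ (g : G) (c : Ω), c ∈ B → g • c ∈ B → ∀ u ∈ B, g • u ∈ B := by
    intro g c hc hgc u hu x hx
    have : g⁻¹ * x * g ∈ D ⊓ stabilizer G c := ⟨by simpa using h.normal.conj_mem _ hx.1 g⁻¹, by
      change (g⁻¹ * x * g) • c = c
      rw [mul_smul, mul_smul, show x • g • c = g • c from hgc hx, inv_smul_smul]⟩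
    rw [← h1 c hc] at this
    have h3 : (g⁻¹ * x * g) • u = u := hu this
    rwa [mul_smul, mul_smul, inv_smul_eq_iff] at h3
  have hB : IsBlock G B := isBlock_iff_smul_eq_of_mem.2 fun g c hc hgc =>
    Set.eq_of_subset_of_ncard_le (by rintro _ ⟨u, hu, rfl⟩; exact h2 g c hc hgc u hu)
      (Set.ncard_smul_set g B).ge (Set.toFinite _)
  rcases hprim.isTrivialBlock_of_isBlock hB with h3 | h3
  · exact absurd (h3 (show b ∈ B from hle) (show a ∈ B from fun _ hx => hx.2)) hb
  · refine eq_bot_iff.2 fun x hx => eq_of_smul_eq_smul (α := Ω) fun c => ?_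
    rw [one_smul]
    exact (h3 ▸ Set.mem_univ c : c ∈ B) hx

omit [Finite G] in
theorem DS.orbits_ge (h : DS Ω D) {a b : Ω} (hb : b ≠ a) {Y : Subgroup G} 
    (hY : Y ≤ D ⊓ stabilizer G a) :
    D.index ≤ ((Quotient.mk'' : Ω → orbitRel.Quotient Y Ω) '' orb (stabilizer G a) b).ncard := by
  refine (h.cov_stab a).le_ncard (fun x => Quotient.mk'' (x • b)) _ (Set.toFinite _)
    (fun x hx => ⟨_, ⟨x, hx, rfl⟩, rfl⟩) fun x hx x' hx' e => ?_
  obtain ⟨y, hy⟩ := orbitRel_apply.1 (Quotient.eq''.1 e)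
  have hy' : (y : G) • x' • b = x • b := hy
  have h1 := h.uniq (x⁻¹ * y * x') b a (by rw [mul_smul, mul_smul, hy', inv_smul_smul])
    (mul_mem (mul_mem ((stabilizer G a).inv_mem hx) (hY y.2).2) hx') hb
  have h2 := D.mul_mem (h.normal.conj_mem _ (D.inv_mem (hY y.2).1) x⁻¹) h1
  convert h2 using 1
  group

omit [Finite G] [Finite Ω] in
theorem disj_image {a : Ω} {Y : Subgroup G} (hY : Y ≤ stabilizer G a) {b c : Ω}
    (h : c ∉ orb (stabilizer G a) b) :
    Disjoint ((Quotient.mk'' : Ω → orbitRel.Quotient Y Ω) '' orb (stabilizer G a) b)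
      (Quotient.mk'' '' orb (stabilizer G a) c) := by
  rw [Set.disjoint_left]
  rintro _ ⟨u, hu, rfl⟩ ⟨w, hw, e⟩
  obtain ⟨y, hy⟩ := orbitRel_apply.1 (Quotient.eq''.1 e)
  have hy' : (y : G) • u = w := hy
  rw [← orb_eq (hy' ▸ smul_mem_orb (hY y.2) hu : w ∈ _), orb_eq hw] at h
  exact h (mem_orb_self _ _)

theorem RS.key [FaithfulSMul G Ω] (hV : RS Ω D V p) (h : DS Ω D) (hprim : IsPreprimitive G Ω)
    (h2 : 2 ≤ Nat.card Ω) (hn : Nat.card Ω < (D.index + 1) ^ 2) (a : Ω)
    (hD : D ⊓ stabilizer G a ≠ ⊥) :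
    ∃ φ : ℕ, (∀ y ∈ D, y ≠ 1 → (fixedBy Ω y).ncard ≤ φ) ∧
      ∀ Y ≤ D ⊓ stabilizer G a, φ + 1 ≤ Nat.card (orbitRel.Quotient Y Ω) := by
  have : Nontrivial Ω := Finite.one_lt_card_iff_nontrivial.1 h2
  obtain ⟨b, hb, hmin⟩ := Set.exists_min_image {c : Ω | c ≠ a}
    (fun c => (orb (stabilizer G a) c).ncard) (Set.toFinite _) (exists_ne a)
  have hi : 0 < D.index := Nat.pos_of_ne_zero (index_ne_zero_of_finite (H := D))
  have hk := h.ncard_sub hb
  obtain ⟨t, ht⟩ := h.one_mod (h.cov_stab a) le_rfl Set.univ (fun _ _ _ _ => trivial) trivial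
  rw [Set.ncard_univ] at ht
  have ht' : t ≤ D.index + 1 := by
    by_contra hh
    have := Nat.mul_le_mul_left D.index (show D.index + 2 ≤ t by omega)
    nlinarith
  have hna : ∀ c, c ≠ a → a ∉ orb (stabilizer G a) c := fun c hc hh => ne_of_mem_orb hc hh rfl
  have hpos : ∀ (Y : Subgroup G), 1 ≤ ((Quotient.mk'' : Ω → orbitRel.Quotient Y Ω) ''
      orb (stabilizer G a) a).ncard := fun Y =>
    (Set.ncard_pos (Set.toFinite _)).2 ⟨_, a, mem_orb_self _ _, rfl⟩
  by_cases hc : ∀ c, c ≠ a → c ∈ orb (stabilizer G a) b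
  · refine ⟨D.index, fun y hy hy1 => ?_, fun Y hY => ?_⟩
    · obtain ⟨c, hc'⟩ : ∃ c : Ω, y • c ≠ c := by
        by_contra hh
        push Not at hh
        exact hy1 (eq_of_smul_eq_smul (α := Ω) fun c => by rw [hh, one_smul])
      obtain ⟨g, -, rfl⟩ := h.trans a c
      have h3 := h.fix_le hb hmin hy hc'
      have h4 : (fixedBy Ω y).ncard ≤
          {u ∈ orb (stabilizer G a) b | y • g • u = g • u}.ncard := by
        refine Set.ncard_le_ncard_of_injOn (fun u => g⁻¹ • u) (fun u hu => ⟨hc _ fun e => hc' ?_, ?_⟩)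
          (fun _ _ _ _ e => MulAction.injective g⁻¹ e) (Set.toFinite _)
        · rw [← e, smul_inv_smul]; exact hu
        · rw [smul_inv_smul]; exact hu
      have h5 : (orb (stabilizer G a) b).ncard + 1 ≤ Nat.card Ω := by
        rw [← Set.ncard_insert_of_notMem (hna b hb), ← Set.ncard_univ]
        exact Set.ncard_le_ncard (Set.subset_univ _) (Set.toFinite _)
      have h6 := Nat.le_of_mul_le_mul_left (show D.index * (orb (D ⊓ stabilizer G a) b).ncard ≤
        D.index * t by omega) hi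
      omega
    · have h3 := h.orbits_ge hb hY
      have h4 := Set.ncard_union_eq (disj_image (hY.trans inf_le_right) (hna b hb))
      have h5 := Set.ncard_le_ncard (Set.subset_univ
        ((Quotient.mk'' : Ω → orbitRel.Quotient Y Ω) '' orb (stabilizer G a) b ∪
          Quotient.mk'' '' orb (stabilizer G a) a))
      have := hpos Y
      rw [Set.ncard_univ] at h5
      exact le_trans (by omega) h5
  push Not at hc
  obtain ⟨c, hca, hc⟩ := hc
  refine ⟨2 * D.index, fun y hy hy1 => ?_, fun Y hY => ?_⟩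
  · obtain ⟨θ, h3, h4, h5⟩ := hV.fix_le h hb hmin hy hy1
    rw [hk] at h4 h5
    refine four_arith ?_ ?_ (by nlinarith) h3 h4 h5
    · by_contra hh
      refine hD (h.stab_eq_bot hprim hb fun x hx => ?_)
      exact (Set.ncard_le_one (Set.toFinite _)).1 (by omega : (orb (D ⊓ stabilizer G a) b).ncard ≤ 1)
        _ ⟨x, hx, rfl⟩ _ (mem_orb_self _ _)
    · have h6 : Disjoint (orb (stabilizer G a) b) (orb (stabilizer G a) c) := by
        rw [Set.disjoint_left]
        intro u hu hu'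
        rw [← orb_eq hu, orb_eq hu'] at hc
        exact hc (mem_orb_self _ _)
      have h7 : (orb (stabilizer G a) b ∪ orb (stabilizer G a) c).ncard + 1 ≤ Nat.card Ω := by
        rw [← Set.ncard_insert_of_notMem (fun hh => hh.elim (hna b hb) (hna c hca)), ← Set.ncard_univ]
        exact Set.ncard_le_ncard (Set.subset_univ _) (Set.toFinite _)
      rw [Set.ncard_union_eq h6] at h7
      have h8 : (orb (stabilizer G a) b).ncard ≤ _ := hmin c hca
      have h9 := Nat.le_of_mul_le_mul_left (show D.index * (2 * (orb (D ⊓ stabilizer G a) b).ncard) ≤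
        D.index * t by rw [mul_left_comm]; omega) hi
      omega
  · have h3 := h.orbits_ge hb hY
    have h3' := h.orbits_ge hca hY
    have hY' := hY.trans inf_le_right
    have h4 := Set.ncard_union_eq (disj_image hY' hc)
    have h4' := Set.ncard_union_eq
      (Set.disjoint_union_left.2 ⟨disj_image hY' (hna b hb), disj_image hY' (hna c hca)⟩)
    have h5 := Set.ncard_le_ncard (Set.subset_univ
      ((Quotient.mk'' : Ω → orbitRel.Quotient Y Ω) '' orb (stabilizer G a) b ∪
        Quotient.mk'' '' orb (stabilizer G a) c ∪ Quotient.mk'' '' orb (stabilizer G a) a))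
    have := hpos Y
    rw [Set.ncard_univ] at h5
    exact le_trans (by omega) h5

theorem DS.main [FaithfulSMul G Ω] (h : DS Ω D) (hprim : IsPreprimitive G Ω)
    (h2 : 2 ≤ Nat.card Ω) (hna : ∀ N : Subgroup G, N.Normal → IsMulCommutative N → N = ⊥) :
    (D.index + 1) ^ 2 ≤ Nat.card Ω := by
  classical
  by_contra hn
  rw [not_le] at hn
  obtain ⟨V, p, hV⟩ := h.exists_RS h2 hn
  have := Fact.mk hV.pp
  obtain ⟨a⟩ : Nonempty Ω := (Nat.card_pos_iff.1 (by omega)).1
  obtain ⟨g, hg, hgV⟩ : ∃ g ∈ D, g ∉ normalizer (V : Set G) := by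
    by_contra hh
    push Not at hh
    have h1 : V.Normal := normalizer_eq_top_iff.1 (eq_top_iff.2 fun x _ => by
      obtain ⟨y, hy, e⟩ := hV.cov h x
      simpa using mul_mem hy (hh _ e))
    have h3 := hV.card a
    rw [hna V h1 ⟨⟨fun v w => Subtype.ext (hV.comm _ v.2 _ w.2)⟩⟩, card_bot] at h3
    omega
  set V' := MulAut.conj g • V with hV'
  have hV'D : V' ≤ D := (hV.syl.conj_smul_of_mem_normalizer (le_normalizer hg)).le
  set W := V ⊓ V'
  set C := D ⊓ centralizer (W : Set G)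
  have hVC : V ≤ C := fun v hv => ⟨hV.syl.le hv, fun w hw => hV.comm w hw.1 v hv⟩
  have hVC' : V' ≤ C := fun v hv => ⟨hV'D hv, fun w hw => by
    have := hV.comm _ (mem_pointwise_smul_iff_inv_smul_mem.1 hw.2) _
      (mem_pointwise_smul_iff_inv_smul_mem.1 hv)
    rw [← smul_mul', ← smul_mul'] at this
    exact MulAction.injective _ this⟩
  set Y := C ⊓ stabilizer G a
  have hYD : Y ≤ D ⊓ stabilizer G a := inf_le_inf inf_le_left le_rfl
  have hn0 : 0 < Nat.card Ω := by omega
  have e1 : Nat.card Y = V.relIndex C := by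
    apply Nat.eq_of_mul_eq_mul_right hn0
    rw [mul_comm (V.relIndex C), ← hV.card a, card_mul_relIndex hVC, ← card_eq_orb C a, hV.card a,
      show orb C a = Set.univ from Set.eq_univ_of_forall fun b => orb_mono hVC a (hV.trans a b),
      Set.ncard_univ]
  have e2 : Nat.card W * V.relIndex V' = Nat.card Ω := by
    rw [card_inf_mul_relIndex, card_conj_smul, hV.card a]
  have e3 : V.relIndex V' ≤ Nat.card Y :=
    e1 ▸ relIndex_le_of_le_right hVC' (e1 ▸ Nat.card_pos.ne')
  have e4 : V.relIndex V' ≠ 1 := fun hh => hgV (mem_normalizer_iff_conj_smul_eq.2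
    (eq_of_le_of_card_ge (relIndex_eq_one.1 hh) (card_conj_smul g V).ge))
  have e5 : V.relIndex V' ≠ 0 := fun hh => by rw [hh] at e2; omega
  have hY1 : Y ≠ ⊥ := fun hh => by rw [hh, card_bot] at e3; omega
  obtain ⟨φ, h3, h4⟩ := hV.key h hprim h2 hn a fun hh => hY1 (eq_bot_iff.2 (hh ▸ hYD))
  have h5 := h4 Y hYD
  have := Fintype.ofFinite G
  have h6 := Perm1.sum_fixedBy_subgroup Ω Y
  have h7 : ∀ y ∈ Finset.univ.filter (· ∈ Y), Nat.card W ∣ Nat.card (fixedBy Ω y) := by
    intro y hy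
    have hy := (Finset.mem_filter.1 hy).2
    refine dvd_ncard_of_dvd_index_stabilizer (B := W) _ (fixedBy Ω y) (Set.toFinite _)
      (fun w c hc => ?_) fun c _ => ?_
    · change y • (w : G) • c = (w : G) • c
      rw [← mul_smul, ← hy.1.2 w w.2, mul_smul, show y • c = c from hc]
    · rw [show stabilizer W c = ⊥ from eq_bot_iff.2 fun w hw => Subtype.ext (hV.semi w.2.1 hw),
        index_bot]
  have h8 : (Nat.card W).Coprime (Nat.card Y) := by
    refine Nat.Coprime.coprime_dvd_left (card_dvd_of_le inf_le_left) ?_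
    rw [e1]
    exact (hV.syl.of_le hVC inf_le_left).coprime
  obtain ⟨R, hR⟩ := h8.dvd_of_dvd_mul_right (h6 ▸ Finset.dvd_sum h7)
  have h1Y : (1 : G) ∈ Finset.univ.filter (· ∈ Y) := Finset.mem_filter.2 ⟨Finset.mem_univ _, Y.one_mem⟩
  have h9 : ∀ y ∈ (Finset.univ.filter (· ∈ Y)).erase 1,
      Nat.card (fixedBy Ω y) + Nat.card W ≤ Nat.card W * R ∧ 2 ≤ R := by
    intro y hy
    obtain ⟨hy1, hy⟩ := Finset.mem_erase.1 hy
    obtain ⟨t, ht⟩ := h7 y hy
    have hy := (Finset.mem_filter.1 hy).2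
    have h10 := h3 y hy.1.1 hy1
    rw [← Nat.card_coe_set_eq, ht] at h10
    have h11 : t < R := Nat.lt_of_mul_lt_mul_left (a := Nat.card W) (by omega)
    have h12 : 0 < Nat.card (fixedBy Ω y) := by
      have : Nonempty (fixedBy Ω y) := ⟨⟨a, hy.2⟩⟩
      exact Nat.card_pos
    rw [ht] at h12 ⊢
    exact ⟨Nat.mul_le_mul_left _ h11, by have := Nat.pos_of_mul_pos_left h12; omega⟩
  have h10 := Finset.sum_le_card_nsmul _ _ _ fun y hy => (h9 y hy).1
  have h11 : (Finset.univ.filter (· ∈ Y)).card = Nat.card Y := by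
    rw [Nat.card_eq_fintype_card, Fintype.card_subtype]
  rw [Finset.sum_add_distrib, Finset.sum_const, Finset.card_erase_of_mem h1Y, h11, smul_eq_mul,
    smul_eq_mul] at h10
  rw [← Finset.add_sum_erase _ _ h1Y, fixedBy_one_eq_univ, Nat.card_univ, hR] at h6
  obtain ⟨⟨y, hy⟩, hy1⟩ := (Y.ne_bot_iff_exists_ne_one).1 hY1
  have h12 := (h9 y (Finset.mem_erase.2 ⟨fun e => hy1 (Subtype.ext e),
    Finset.mem_filter.2 ⟨Finset.mem_univ _, hy⟩⟩)).2
  obtain ⟨s, hs⟩ : ∃ s, Nat.card Y = s + 1 := ⟨Nat.card Y - 1, by have := Nat.card_pos (α := Y); omega⟩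
  rw [hs] at h6 h10 e3
  rw [Nat.add_sub_cancel] at h10
  have h13 := Nat.mul_le_mul_left (Nat.card W) e3
  have h14 := Nat.mul_le_mul_left (Nat.card W) h12
  have := Nat.card_pos (α := W)
  nlinarith

end Cfsg.Agent.Der
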