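import Cfsg.Agent.Der.Basic
import Cfsg.Agent.Local.Coprime

/-! Small degree forces a regular abelian Sylow subgroup. -/

set_option autoImplicit false

namespace Cfsg.Agent.Der

open Subgroup MulAction Cfsg.Agent.Local
open scoped Pointwise

variable {G Ω : Type*} [Group G] [MulAction G Ω] [Finite G] [Finite Ω] {D : Subgroup G}

/-- the stabiliser of the coset `y P` under conjugation -/
def cosStab (P : Subgroup G) (y : G) : Subgroup G where
  carrier := {z | z ∈ normalizer (P : Set G) ∧ y⁻¹ * z * y * z⁻¹ ∈ P}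
  one_mem' := ⟨one_mem _, by simp⟩
  mul_mem' := by
    rintro z w ⟨h1, h2⟩ ⟨h3, h4⟩
    refine ⟨mul_mem h1 h3, ?_⟩
    have : y⁻¹ * (z * w) * y * (z * w)⁻¹ =
      (y⁻¹ * z * y * z⁻¹) * (z * (y⁻¹ * w * y * w⁻¹) * z⁻¹) := by group
    rw [this]
    exact mul_mem h2 (conj_mem_of_mem_normalizer h1 h4)
  inv_mem' := by
    rintro z ⟨h1, h2⟩
    refine ⟨inv_mem h1, ?_⟩
    have : y⁻¹ * z⁻¹ * y * z⁻¹⁻¹ = z⁻¹ * (y⁻¹ * z * y * z⁻¹)⁻¹ * z := by group
    rw [this]
    exact inv_conj_mem_of_mem_normalizer h1 (inv_mem h2)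

theorem DS.big_pow (h : DS Ω D) {p : ℕ} (hp : p.Prime) (hpn : p ∣ Nat.card Ω) (a : Ω) :
    ∃ k, p ^ k ∣ Nat.card Ω ∧ D.index + 1 ≤ p ^ k := by
  have := Fact.mk hp
  obtain ⟨P0, hP0⟩ := exists_isSylowIn p (D ⊓ stabilizer G a)
  have c0 := (h.cov_stab a).frattini h.normal hP0
  let F : Set Ω := {c | ∀ x ∈ P0, x • c = c}
  have hF : ∀ x ∈ normalizer (P0 : Set G), ∀ c ∈ F, x • c ∈ F := by
    intro x hx c hc z hz
    have := hc _ (inv_conj_mem_of_mem_normalizer hx hz)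
    rw [mul_smul, mul_smul, inv_smul_eq_iff] at this
    exact this
  have haF : a ∈ F := fun x hx => (hP0.le hx).2
  have hFc := h.one_mod c0 inf_le_left F (fun x hx => hF x hx.2) haF
  obtain ⟨Q, hQ, hPQ⟩ := exists_isSylowIn_ge (N := D ⊓ normalizer (P0 : Set G)) hP0.isPGroup
    (le_inf (hP0.le.trans inf_le_left) le_normalizer)
  have c1 := (c0.mono inf_le_right).frattini h.normal hQ
  have key : ∀ c ∈ F, Q ⊓ stabilizer G c = P0 := by
    intro c hc
    have h1 : IsSylowIn p P0 (D ⊓ stabilizer G c) :=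
      isSylowIn_of_card (le_inf (hP0.le.trans inf_le_left) hc)
        (by rw [h.card_stab_eq c a]; exact hP0.card_eq)
    exact h1.eq_of_le (hQ.isPGroup.to_inf_left) (le_inf hPQ hc)
      (inf_le_inf (hQ.le.trans inf_le_left) le_rfl)
  have hrel : Nat.card P0 * (P0.relIndex (D ⊓ stabilizer G a) * Nat.card Ω) = Nat.card D := by
    rw [← mul_assoc, card_mul_relIndex hP0.le, h.card_stab]
  have hne : Q ≠ P0 := by
    rintro rfl
    have h1 := isSylowIn_of_isSylowIn_normalizer (hP0.le.trans inf_le_left) hQ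
    apply h1.not_dvd
    have h2 := card_mul_relIndex h1.le
    rw [← hrel] at h2
    rw [Nat.eq_of_mul_eq_mul_left Nat.card_pos h2]
    exact hpn.mul_left _
  obtain ⟨y, hy, hy0⟩ := SetLike.exists_of_lt (lt_of_le_of_ne hPQ hne.symm)
  have hX : cosStab P0 y ≤ D := by
    refine le_D h.normal _ F (fun x hx => hF x hx.1) hFc fun x hx c hc e => ?_
    refine h.uniq x c (y • c) e ?_ fun e' => hy0 (key c hc ▸ ⟨hy, e'.symm⟩)
    have h1 := hc _ hx.2
    rw [mul_smul, mul_smul, mul_smul, inv_smul_eq_iff, inv_smul_eq_iff.2 e.symm] at h1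
    exact h1
  have hle := c1.le_ncard (fun x => (x * y * x⁻¹) • a) (orb Q a \ {a}) (Set.toFinite _)
    (fun x hx => ⟨⟨_, conj_mem_of_mem_normalizer hx.2 hy, rfl⟩, fun e => hy0 (by
      have h1 : x * y * x⁻¹ ∈ P0 := key a haF ▸ ⟨conj_mem_of_mem_normalizer hx.2 hy, e⟩
      simpa [mul_assoc] using inv_conj_mem_of_mem_normalizer hx.1 h1)⟩)
    (fun x hx x' hx' e => hX ⟨mul_mem (inv_mem hx.1) hx'.1, by
      have h1 : (x * y * x⁻¹)⁻¹ * (x' * y * x'⁻¹) ∈ P0 := key a haF ▸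
        ⟨Q.mul_mem (Q.inv_mem (conj_mem_of_mem_normalizer hx.2 hy))
          (conj_mem_of_mem_normalizer hx'.2 hy), by
            change (_ * _) • a = a
            rw [mul_smul, inv_smul_eq_iff]
            exact e.symm⟩
      have h2 := inv_conj_mem_of_mem_normalizer hx.1 h1
      convert h2 using 1
      group⟩)
  obtain ⟨k, hk⟩ := hQ.isPGroup.index (stabilizer Q a)
  rw [index_stab, ← ncard_orb] at hk
  refine ⟨k, ?_, ?_⟩
  · have h1 := card_eq_orb Q a
    rw [key a haF, hk] at h1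
    have h2 := card_dvd_of_le (hQ.le.trans inf_le_left : Q ≤ D)
    rw [← h1, ← hrel] at h2
    exact (Nat.Coprime.pow_left k ((Nat.Prime.coprime_iff_not_dvd hp).2 hP0.not_dvd)).dvd_of_dvd_mul_left
      (Nat.dvd_of_mul_dvd_mul_left Nat.card_pos h2)
  · rw [← hk, ← Set.ncard_sdiff_singleton_add_one (mem_orb_self Q a)]
    omega

theorem DS.prime_pow (h : DS Ω D) (h2 : 2 ≤ Nat.card Ω) (hn : Nat.card Ω < (D.index + 1) ^ 2) :
    ∃ p k : ℕ, p.Prime ∧ Nat.card Ω = p ^ k := by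
  obtain ⟨a⟩ : Nonempty Ω := (Nat.card_pos_iff.1 (by omega)).1
  have hp := Nat.minFac_prime (n := Nat.card Ω) (by omega)
  refine ⟨_, _, hp, Nat.eq_prime_pow_of_unique_prime_dvd (by omega) fun {q} hq hqn => ?_⟩
  by_contra hne
  obtain ⟨k, h1, h3⟩ := h.big_pow hq hqn a
  obtain ⟨l, h4, h5⟩ := h.big_pow hp (Nat.minFac_dvd _) a
  have h6 := Nat.le_of_dvd (by omega) (Nat.Coprime.mul_dvd_of_dvd_of_dvd
    (Nat.Coprime.pow k l ((Nat.coprime_primes hq hp).2 hne)) h1 h4)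
  have := Nat.mul_le_mul h3 h5
  rw [sq] at hn
  omega

variable (Ω) in
/-- a transitive abelian Sylow subgroup of `D` -/
structure RS (D V : Subgroup G) (p : ℕ) : Prop where
  pp : p.Prime
  syl : IsSylowIn p V D
  comm : ∀ x ∈ V, ∀ y ∈ V, x * y = y * x
  trans : ∀ a b : Ω, ∃ v ∈ V, v • a = b

omit [Finite G] [Finite Ω] in
theorem eq_one_of_comm [FaithfulSMul G Ω] {V : Subgroup G} (ht : ∀ a b : Ω, ∃ v ∈ V, v • a = b)
    {x : G} (hx : ∀ v ∈ V, v * x = x * v) {c : Ω} (e : x • c = c) : x = 1 := by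
  refine eq_of_smul_eq_smul (α := Ω) fun b => ?_
  obtain ⟨v, hv, rfl⟩ := ht c b
  rw [← mul_smul, ← hx v hv, mul_smul, e, one_smul]

theorem DS.exists_RS [FaithfulSMul G Ω] (h : DS Ω D) (h2 : 2 ≤ Nat.card Ω)
    (hn : Nat.card Ω < (D.index + 1) ^ 2) : ∃ V p, RS Ω D V p := by
  obtain ⟨p, k, hp, hk⟩ := h.prime_pow h2 hn
  have := Fact.mk hp
  obtain ⟨P, hP⟩ := exists_isSylowIn p D
  have hPt : ∀ a b : Ω, ∃ v ∈ P, v • a = b := by
    intro a
    have h1 : (orb P a).ncard * P.relIndex D =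
        (P ⊓ stabilizer G a).relIndex (D ⊓ stabilizer G a) * Nat.card Ω := by
      apply Nat.eq_of_mul_eq_mul_left (Nat.card_pos (α := ↥(P ⊓ stabilizer G a)))
      rw [← mul_assoc, ← mul_assoc, card_eq_orb, card_mul_relIndex hP.le,
        card_mul_relIndex (inf_le_inf hP.le le_rfl), h.card_stab]
    have h3 : Nat.card Ω ∣ (orb P a).ncard := by
      refine Nat.Coprime.dvd_of_dvd_mul_right ?_ (Dvd.intro_left _ h1.symm)
      rw [hk]
      exact Nat.Coprime.pow_left k ((Nat.Prime.coprime_iff_not_dvd hp).2 hP.not_dvd)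
    have h4 : orb P a = Set.univ := by
      apply Set.eq_of_subset_of_ncard_le (Set.subset_univ _) _ (Set.toFinite _)
      rw [Set.ncard_univ]
      exact Nat.le_of_dvd ((Set.ncard_pos (Set.toFinite _)).mpr ⟨a, mem_orb_self _ a⟩) h3
    exact fun b => (h4 ▸ Set.mem_univ b : b ∈ orb P a)
  have : Nontrivial Ω := Finite.one_lt_card_iff_nontrivial.1 h2
  obtain ⟨a, b, hab⟩ := exists_pair_ne Ω
  let Z := P ⊓ centralizer (P : Set G)
  by_cases hZ : ∀ c, c ∈ orb Z a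
  · refine ⟨P, p, hp, hP, fun x hx y hy => ?_, hPt⟩
    obtain ⟨z, hz, e⟩ := hZ (x • a)
    have hZt : ∀ a' b' : Ω, ∃ v ∈ Z, v • a' = b' := fun a' b' =>
      (orb_eq (hZ a') ▸ hZ b' : b' ∈ orb Z a')
    have := eq_one_of_comm hZt (x := z⁻¹ * x) (c := a)
      (fun v hv => (hv.2 _ (mul_mem (inv_mem hz.1) hx)).symm) (by rw [mul_smul, ← e, inv_smul_smul])
    rw [← inv_mul_eq_one.1 this]
    exact (hz.2 y hy).symm
  exfalso
  push Not at hZ
  obtain ⟨c, hc⟩ := hZ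
  have hsemi : ∀ c : Ω, (orb Z c).ncard = Nat.card Z := by
    intro c
    rw [← card_eq_orb Z c, show Z ⊓ stabilizer G c = ⊥ from eq_bot_iff.2 fun x hx =>
      eq_one_of_comm hPt hx.1.2 hx.2, card_bot, one_mul]
  have c1 : Cov D (normalizer (P : Set G)) := by
    have := (cov_top (D := D)).frattini h.normal (P := P) (p := p) (by rwa [inf_top_eq])
    rwa [top_inf_eq] at this
  have c2 := c1.stab h.normal a fun b =>
    let ⟨v, hv, e⟩ := hPt a b
    ⟨v, hP.le hv, le_normalizer hv, e⟩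
  set H := normalizer (P : Set G) ⊓ stabilizer G a
  have hHZ : H ≤ normalizer (Z : Set G) := inf_le_left.trans
    (le_normalizer_inf le_rfl (normalizer_le_normalizer_centralizer P))
  have hinv : ∀ x ∈ Z ⊔ H, ∀ u ∈ orb Z a, x • u ∈ orb Z a := by
    rintro x hx _ ⟨z, hz, rfl⟩
    obtain ⟨z', hz', w, hw, rfl⟩ := (mem_sup_of_right_le_normalizer hHZ).1 hx
    refine ⟨z' * (w * z * w⁻¹), mul_mem hz' (conj_mem_of_mem_normalizer (hHZ hw) hz), ?_⟩
    have : w⁻¹ • a = a := (stabilizer G a).inv_mem hw.2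
    simp only [mul_smul, this]
  obtain ⟨t, ht⟩ := h.one_mod c2 inf_le_right (orb Z a) (fun x hx => hinv x (mem_sup_right hx))
    (mem_orb_self _ _)
  have hB : (Z ⊔ H) ⊓ stabilizer G c ≤ D :=
    le_D h.normal _ (orb Z a) (fun x hx => hinv x hx.1) ⟨t, ht⟩ fun x hx u hu e =>
      h.uniq x u c e hx.2 fun e' => hc (e' ▸ hu)
  have h3 := (c2.mono (le_sup_right (a := Z))).ncard_orb h.normal hB
  have h4 : Nat.card Z ≤ (orb (D ⊓ (Z ⊔ H)) c).ncard := hsemi c ▸ Set.ncard_le_ncard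
    (orb_mono (le_inf (inf_le_left.trans hP.le) le_sup_left) c) (Set.toFinite _)
  have h5 : (orb Z a).ncard + (orb (Z ⊔ H) c).ncard ≤ Nat.card Ω := by
    rw [← Set.ncard_union_eq _ (Set.toFinite _) (Set.toFinite _), ← Set.ncard_univ]
    · exact Set.ncard_le_ncard (Set.subset_univ _) (Set.toFinite _)
    · rw [Set.disjoint_left]
      rintro _ hu ⟨x, hx, rfl⟩
      exact hc (by simpa using hinv _ (inv_mem hx) _ hu)
  have h6 : Nat.card Z ≠ 1 := by
    obtain ⟨v, hv, e⟩ := hPt a b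
    have : Nontrivial P := ⟨⟨⟨v, hv⟩, 1, fun e' => hab (by
      rw [← e, show v = 1 from congrArg Subtype.val e', one_smul])⟩⟩
    have := hP.isPGroup.center_nontrivial
    obtain ⟨⟨z, hz⟩, hz1⟩ := exists_ne (1 : center P)
    rw [Ne, card_eq_one]
    intro e
    have : (z : G) ∈ Z := ⟨z.2, fun y hy => congrArg Subtype.val (mem_center_iff.1 hz ⟨y, hy⟩)⟩
    rw [e] at this
    exact hz1 (Subtype.ext (Subtype.ext this))
  rw [hsemi] at ht h5
  have h7 : D.index + 1 ≤ Nat.card Z := by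
    rcases t with _ | t
    · omega
    · rw [ht]; nlinarith
  have h8 := Nat.mul_le_mul_left D.index h4
  nlinarith

end Cfsg.Agent.Der
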